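import Cfsg.Agent.Lib.SSClass.Star
import Cfsg.Agent.Lib.SSClass.Tuple

/-!
# Models: blocks of isometries of prime order with prescribed multiplicities
-/

set_option autoImplicit false
set_option linter.unusedSectionVars false
set_option linter.unusedVariables false

namespace Cfsg.Agent.Lib.SSClass

open Polynomial Module QuadraticMap
open Cfsg.Agent.S2568 (SS Th mem_Th x1_mem sum_deg_Th card_SS sum_deg_ss card_tuples)
open Cfsg.Agent.Lib.MatConj.Semisimple Cfsg.Agent.Lib.MatConj.CycloFactors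
open Cfsg.Agent.Lib.ElusF.SpModel
open Cfsg.Agent.Lib.SpSpec.FormAlg

universe u v

section QAlg

variable {F : Type u} [Field F] {R : Type v} [CommRing R] [Algebra F R]

/-- A commutative algebra with an involution and a trace-like form giving a quadratic form. -/
structure IsQAlg (σ : R →ₐ[F] R) (τ : R →ₗ[F] F) (μ : R) : Prop where
  invol : ∀ f, σ (σ f) = f
  sym : ∀ f, τ (σ f) = τ f
  nondeg : ∀ f, (∀ g, τ (f * g) = 0) → f = 0
  mu : μ + σ μ = 1

/-- The bilinear form whose diagonal is the quadratic form. -/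
noncomputable def qbil (σ : R →ₐ[F] R) (τ : R →ₗ[F] F) (μ : R) : LinearMap.BilinMap F R F :=
  LinearMap.mk₂ F (fun x y => τ (μ * x * σ y))
    (fun a b c => by simp [mul_add, add_mul])
    (fun c a b => by simp)
    (fun a b c => by simp [mul_add])
    (fun c a b => by simp)

/-- The quadratic form. -/
noncomputable def qform (σ : R →ₐ[F] R) (τ : R →ₗ[F] F) (μ : R) : QuadraticForm F R :=
  (qbil σ τ μ).toQuadraticMap

theorem qform_apply (σ : R →ₐ[F] R) (τ : R →ₗ[F] F) (μ x : R) : qform σ τ μ x = τ (μ * x * σ x) := rfl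

variable {σ : R →ₐ[F] R} {τ : R →ₗ[F] F} {μ : R}

theorem polar_qform (h : IsQAlg σ τ μ) (x y : R) : polar (qform σ τ μ) x y = τ (x * σ y) := by
  rw [qform, LinearMap.BilinMap.polar_toQuadraticMap]
  show τ (μ * x * σ y) + τ (μ * y * σ x) = _
  have h1 : τ (μ * y * σ x) = τ (σ μ * x * σ y) := by
    rw [← h.sym (μ * y * σ x)]
    simp only [map_mul, h.invol]
    congr 1
    ring
  rw [h1, ← map_add, ← add_mul, ← add_mul, h.mu, one_mul]

theorem qform_nondeg (h : IsQAlg σ τ μ) : (polarBilin (qform σ τ μ)).Nondegenerate := by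
  have hL : ∀ x : R, (∀ y, polar (qform σ τ μ) x y = 0) → x = 0 := by
    intro x hx
    apply h.nondeg
    intro g
    have := hx (σ g)
    rw [polar_qform h, h.invol] at this
    exact this
  refine ⟨fun x hx => hL x hx, fun y hy => hL y fun x => ?_⟩
  rw [polar_comm]
  exact hy x

theorem qform_lmul {x₀ : R} (hx : x₀ * σ x₀ = 1) (u : R) :
    qform σ τ μ (Algebra.lmul F R x₀ u) = qform σ τ μ u := by
  rw [qform_apply, qform_apply]
  have h1 : μ * (Algebra.lmul F R x₀ u) * σ (Algebra.lmul F R x₀ u) = (x₀ * σ x₀) * (μ * u * σ u) := by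
    show μ * (x₀ * u) * σ (x₀ * u) = _
    rw [map_mul]
    ring
  rw [h1, hx, one_mul]

end QAlg

section Swap

variable {F : Type u} [Field F]

/-- The swap algebra. -/
theorem isQAlg_swap (K : Type*) [Field K] [Algebra F K] [FiniteDimensional F K] [Algebra.IsSeparable F K] :
    IsQAlg (F := F) ((AlgHom.snd F K K).prod (AlgHom.fst F K K))
      ((Algebra.trace F K).coprod (Algebra.trace F K)) ((1, 0) : K × K) where
  invol f := rfl
  sym f := by
    change Algebra.trace F K f.2 + Algebra.trace F K f.1 = Algebra.trace F K f.1 + Algebra.trace F K f.2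
    rw [add_comm]
  nondeg f hf := by
    have hnd := traceForm_nondegenerate F K
    have hrefl : (Algebra.traceForm F K).IsRefl := (Algebra.traceForm_isSymm F).isRefl
    have hL := (LinearMap.IsRefl.nondegenerate_iff_separatingLeft hrefl).1 hnd
    apply Prod.ext
    · apply hL
      intro g
      have := hf (g, 0)
      simpa [Algebra.traceForm_apply] using this
    · apply hL
      intro g
      have := hf (0, g)
      simpa [Algebra.traceForm_apply] using this
  mu := by
    apply Prod.ext <;> simp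

/-- The field algebra. -/
theorem isQAlg_field (K : Type*) [Field K] [Algebra F K] [FiniteDimensional F K] [Algebra.IsSeparable F K]
    (σ : K ≃ₐ[F] K) (hσ : ∀ x, σ (σ x) = x) (hne : ∃ β, σ β ≠ β) :
    ∃ μ : K, IsQAlg (F := F) σ.toAlgHom (Algebra.trace F K) μ := by
  have hex : ∃ β, β + σ β ≠ 0 := by
    by_contra hc
    push Not at hc
    obtain ⟨β, hβ⟩ := hne
    apply hβ
    have h1 := hc β
    have h2 := hc 1
    simp only [map_one] at h2
    have h3 : σ β = -β := eq_neg_of_add_eq_zero_right h1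
    have h4 : (1 : K) = -1 := eq_neg_of_add_eq_zero_right h2
    rw [h3]
    calc -β = -1 * β := by ring
      _ = 1 * β := by rw [← h4]
      _ = β := one_mul β
  obtain ⟨β, hβ⟩ := hex
  refine ⟨β / (β + σ β), ?_⟩
  refine ⟨hσ, fun f => Algebra.trace_eq_of_algEquiv σ f, ?_, ?_⟩
  · intro f hf
    have hnd := traceForm_nondegenerate F K
    have hrefl : (Algebra.traceForm F K).IsRefl := (Algebra.traceForm_isSymm F).isRefl
    have hL := (LinearMap.IsRefl.nondegenerate_iff_separatingLeft hrefl).1 hnd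
    apply hL
    intro g
    exact hf g
  · show β / (β + σ β) + σ (β / (β + σ β)) = 1
    rw [map_div₀, map_add, hσ, add_comm (σ β) β]
    field_simp

end Swap

section Good

variable {F : Type u} [Field F]

/-- The endomorphism preserves a nondegenerate quadratic form. -/
def GoodQ (V : Type u) [AddCommGroup V] [Module F V] (T : End F V) : Prop :=
  ∃ Q : QuadraticForm F V, (polarBilin Q).Nondegenerate ∧ ∀ v, Q (T v) = Q v

theorem GoodQ.base : GoodQ (F := F) PUnit.{u + 1} 1 :=
  ⟨0, ⟨fun _ _ => Subsingleton.elim _ _, fun _ _ => Subsingleton.elim _ _⟩, fun _ => rfl⟩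

theorem nondeg_prod {V V' : Type*} [AddCommGroup V] [Module F V] [AddCommGroup V'] [Module F V']
    {Q : QuadraticForm F V} {Q' : QuadraticForm F V'} (h : (polarBilin Q).Nondegenerate)
    (h' : (polarBilin Q').Nondegenerate) : (polarBilin (Q.prod Q')).Nondegenerate := by
  have hL : ∀ x : V × V', (∀ y, polar (Q.prod Q') x y = 0) → x = 0 := by
    intro x hx
    apply Prod.ext
    · apply h.1
      intro y
      have := hx (y, 0)
      rw [polar_prod] at this
      simpa using this
    · apply h'.1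
      intro y
      have := hx (0, y)
      rw [polar_prod] at this
      simpa using this
  refine ⟨fun x hx => hL x hx, fun y hy => hL y fun x => ?_⟩
  rw [polar_comm]
  exact hy x

theorem GoodQ.prod {V V' : Type u} [AddCommGroup V] [Module F V] [AddCommGroup V'] [Module F V']
    {T : End F V} {T' : End F V'} (h : GoodQ V T) (h' : GoodQ V' T') :
    GoodQ (V × V') (LinearMap.prodMap T T') := by
  obtain ⟨Q, h1, h2⟩ := h
  obtain ⟨Q', h1', h2'⟩ := h'
  exact ⟨Q.prod Q', nondeg_prod h1 h1', fun v => by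
    show Q (T v.1) + Q' (T' v.2) = Q v.1 + Q' v.2
    rw [h2, h2']⟩

/-- The endomorphism preserves a nondegenerate alternating form. -/
def GoodS (r : ℕ) (V : Type u) [AddCommGroup V] [Module F V] (T : End F V) : Prop :=
  ∃ B : LinearMap.BilinForm F V, Rz B T r

theorem GoodS.base (r : ℕ) : GoodS (F := F) r PUnit.{u + 1} 1 :=
  ⟨0, fun _ => rfl, ⟨fun _ _ => Subsingleton.elim _ _, fun _ _ => Subsingleton.elim _ _⟩, fun _ _ => rfl, one_pow r⟩

theorem GoodS.prod {r : ℕ} {V V' : Type u} [AddCommGroup V] [Module F V] [AddCommGroup V'] [Module F V']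
    {T : End F V} {T' : End F V'} (h : GoodS r V T) (h' : GoodS r V' T') :
    GoodS r (V × V') (LinearMap.prodMap T T') := by
  obtain ⟨B, h1⟩ := h
  obtain ⟨B', h1'⟩ := h'
  exact ⟨_, h1.prod h1'⟩

theorem pow_prodMap {V V' : Type*} [AddCommGroup V] [Module F V] [AddCommGroup V'] [Module F V']
    {T : End F V} {T' : End F V'} {r : ℕ} (h : T ^ r = 1) (h' : T' ^ r = 1) :
    (LinearMap.prodMap T T' : End F (V × V')) ^ r = 1 := by
  have h1 : (LinearMap.prodMap T T' : End F (V × V')) = LinearMap.prodMapAlgHom F V V' (T, T') := rfl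
  rw [h1, ← map_pow, Prod.pow_mk, h, h']
  exact map_one _

end Good

section Blk

open scoped _root_.Classical

variable {F : Type u} [Field F] [Fintype F] {p q r : ℕ} [Fact p.Prime] [CharP F p]

/-- A block: an endomorphism of order dividing `r`, without fixed vector, with prescribed multiplicities. -/
def Blk (Good : (V : Type u) → [AddCommGroup V] → [Module F V] → End F V → Prop) (r d i : ℕ) (c : SS F r → ℕ) : Prop :=
  ∃ (V : Type u) (_ : AddCommGroup V) (_ : Module F V) (_ : FiniteDimensional F V) (T : End F V),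
    Good V T ∧ T ^ r = 1 ∧ finrank F V = d ∧ Dk T (X - 1 : F[X]) = 0 ∧ ∀ h : SS F r, Dk T h.1 = i * c h

theorem Blk.list (hr : r.Prime) (Good : (V : Type u) → [AddCommGroup V] → [Module F V] → End F V → Prop)
    (hbase : Good PUnit.{u + 1} 1)
    (hprod : ∀ (V V' : Type u) [AddCommGroup V] [Module F V] [AddCommGroup V'] [Module F V'] (T : End F V) (T' : End F V'),
      Good V T → Good V' T' → Good (V × V') (LinearMap.prodMap T T'))
    {d i : ℕ} (c : SS F r → SS F r → ℕ) (hblk : ∀ g, Blk Good r d i (c g)) (l : List (SS F r)) :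
    Blk Good r (d * l.length) i (fun h => (l.map fun g => c g h).sum) := by
  induction l with
  | nil =>
    refine ⟨PUnit.{u + 1}, inferInstance, inferInstance, inferInstance, 1, hbase, one_pow r, ?_, ?_, ?_⟩
    · rw [List.length_nil, Nat.mul_zero]
      exact finrank_zero_of_subsingleton
    · rw [Dk_one_sub]
      exact finrank_zero_of_subsingleton
    · intro h
      rw [Dk_one_SS hr]
      simp
  | cons g l ih =>
    obtain ⟨V, _, _, _, T, hG, hp, hf, hx, hD⟩ := ih
    obtain ⟨V', _, _, _, T', hG', hp', hf', hx', hD'⟩ := hblk g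
    refine ⟨V × V', inferInstance, inferInstance, inferInstance, LinearMap.prodMap T T', hprod _ _ _ _ hG hG',
      pow_prodMap hp hp', ?_, ?_, ?_⟩
    · rw [finrank_prod, hf, hf', List.length_cons]
      ring
    · rw [Dk_prod, hx, hx']
    · intro h
      rw [Dk_prod, hD, hD']
      simp only [List.map_cons, List.sum_cons]
      ring

/-- Multiplicities of a multiplication operator. -/
theorem Dk_lmul_root (hr : r.Prime) (g h : SS F r) [Fact (Irreducible g.1)] [FiniteDimensional F (AdjoinRoot g.1)] :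
    Dk (Algebra.lmul F (AdjoinRoot g.1) (AdjoinRoot.root g.1) : End F (AdjoinRoot g.1)) h.1 =
      g.1.natDegree * (if g = h then 1 else 0) := by
  obtain ⟨h1, h2, h3, h4, h5⟩ := SS_props hr g
  obtain ⟨k1, k2, k3, k4, k5⟩ := SS_props hr h
  rw [Dk_lmul, finrank_adjoinRoot g.1 h2]
  by_cases hgh : g = h
  · rw [if_pos hgh, if_pos, mul_one]
    rw [aeval_root_iff g.1 h.1 h2 k1 k2, hgh]
  · rw [if_neg hgh, if_neg, mul_zero]
    rw [aeval_root_iff g.1 h.1 h2 k1 k2]
    exact fun h6 => hgh (Subtype.ext h6.symm)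

theorem Dk_lmul_inv_root (hr : r.Prime) (g h : SS F r) [Fact (Irreducible g.1)] [FiniteDimensional F (AdjoinRoot g.1)] :
    Dk (Algebra.lmul F (AdjoinRoot g.1) (AdjoinRoot.root g.1)⁻¹ : End F (AdjoinRoot g.1)) h.1 =
      g.1.natDegree * (if star hr g = h then 1 else 0) := by
  obtain ⟨h1, h2, h3, h4, h5⟩ := SS_props hr g
  obtain ⟨k1, k2, k3, k4, k5⟩ := SS_props hr h
  rw [Dk_lmul, finrank_adjoinRoot g.1 h2]
  by_cases hgh : star hr g = h
  · rw [if_pos hgh, if_pos, mul_one]
    rw [aeval_inv_root_iff g.1 h.1 h2 h5 k1 k2, ← hgh]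
    rfl
  · rw [if_neg hgh, if_neg, mul_zero]
    rw [aeval_inv_root_iff g.1 h.1 h2 h5 k1 k2]
    exact fun h6 => hgh (Subtype.ext h6.symm)

theorem Dk_lmul_x1 (hr : r.Prime) (g : SS F r) [Fact (Irreducible g.1)] [FiniteDimensional F (AdjoinRoot g.1)]
    {x : AdjoinRoot g.1} (hx : x ≠ 1) :
    Dk (Algebra.lmul F (AdjoinRoot g.1) x : End F (AdjoinRoot g.1)) (X - 1 : F[X]) = 0 := by
  classical
  rw [Dk_lmul, if_neg]
  simp only [map_sub, aeval_X, map_one, sub_eq_zero]
  exact hx

/-- The data of the double block. -/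
theorem double_data (hF : Fintype.card F = q) (hr : r.Prime) (hrp : r ≠ p) (g : SS F r) [Fact (Irreducible g.1)] [FiniteDimensional F (AdjoinRoot g.1)] :
    let K := AdjoinRoot g.1
    let ω : K := AdjoinRoot.root g.1
    let x : K × K := (ω, ω⁻¹)
    let T : End F (K × K) := Algebra.lmul F (K × K) x
    x ^ r = 1 ∧ T ^ r = 1 ∧ finrank F (K × K) = 2 * orderOf (q : ZMod r) ∧ Dk T (X - 1 : F[X]) = 0 ∧
      ∀ h : SS F r, Dk T h.1 = orderOf (q : ZMod r) * ((if g = h then 1 else 0) + (if star hr g = h then 1 else 0)) := by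
  classical
  intro K ω x T
  obtain ⟨h1, h2, h3, h4, h5⟩ := SS_props hr g
  have hdeg := natDegree_SS hF hr hrp g
  have hω0 : ω ≠ 0 := root_ne_zero_of g.1 h5
  have hω1 : ω ≠ 1 := root_ne_one_of g.1 h2 h4
  have hωi : ω⁻¹ ≠ 1 := fun h => hω1 (inv_eq_one.mp h)
  have hωr : ω ^ r = 1 := root_pow_of_dvd g.1 h3
  have hxr : x ^ r = 1 := by
    apply Prod.ext
    · exact hωr
    · show ω⁻¹ ^ r = 1
      rw [inv_pow, hωr, inv_one]
  have hT : T = LinearMap.prodMap (Algebra.lmul F K ω) (Algebra.lmul F K ω⁻¹) := by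
    ext y <;> rfl
  refine ⟨hxr, ?_, ?_, ?_, ?_⟩
  · show (Algebra.lmul F (K × K) x) ^ r = 1
    rw [← map_pow, hxr, map_one]
  · rw [finrank_prod, finrank_adjoinRoot g.1 h2, hdeg]
    ring
  · rw [hT, Dk_prod, Dk_lmul_x1 hr g hω1, Dk_lmul_x1 hr g hωi]
  · intro h
    rw [hT, Dk_prod, Dk_lmul_root hr g h, Dk_lmul_inv_root hr g h, hdeg]
    ring

theorem blkQ_double (hF : Fintype.card F = q) (hr : r.Prime) (hrp : r ≠ p) (g : SS F r) :
    Blk GoodQ r (2 * orderOf (q : ZMod r)) (orderOf (q : ZMod r))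
      (fun h => (if g = h then 1 else 0) + (if star hr g = h then 1 else 0)) := by
  classical
  obtain ⟨h1, h2, h3, h4, h5⟩ := SS_props hr g
  haveI : Fact (Irreducible g.1) := ⟨h1⟩
  haveI : FiniteDimensional F (AdjoinRoot g.1) := (AdjoinRoot.powerBasis' h2).finite
  haveI : Finite (AdjoinRoot g.1) := Module.finite_of_finite F
  obtain ⟨hxr, hTr, hfin, hx1, hDk⟩ := double_data hF hr hrp g
  refine ⟨AdjoinRoot g.1 × AdjoinRoot g.1, inferInstance, inferInstance, inferInstance, _, ?_, hTr, hfin, hx1, hDk⟩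
  have hq := isQAlg_swap (F := F) (AdjoinRoot g.1)
  refine ⟨_, qform_nondeg hq, fun v => qform_lmul ?_ v⟩
  apply Prod.ext
  · exact mul_inv_cancel₀ (root_ne_zero_of g.1 h5)
  · exact inv_mul_cancel₀ (root_ne_zero_of g.1 h5)

theorem blkS_double (hF : Fintype.card F = q) (hr : r.Prime) (hrp : r ≠ p) (g : SS F r) :
    Blk (GoodS r) r (2 * orderOf (q : ZMod r)) (orderOf (q : ZMod r))
      (fun h => (if g = h then 1 else 0) + (if star hr g = h then 1 else 0)) := by
  classical
  obtain ⟨h1, h2, h3, h4, h5⟩ := SS_props hr g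
  haveI : Fact (Irreducible g.1) := ⟨h1⟩
  haveI : FiniteDimensional F (AdjoinRoot g.1) := (AdjoinRoot.powerBasis' h2).finite
  haveI : Finite (AdjoinRoot g.1) := Module.finite_of_finite F
  obtain ⟨hxr, hTr, hfin, hx1, hDk⟩ := double_data hF hr hrp g
  refine ⟨AdjoinRoot g.1 × AdjoinRoot g.1, inferInstance, inferInstance, inferInstance, _, ?_, hTr, hfin, hx1, hDk⟩
  refine ⟨_, Rz.lmul (formAlg_swap (F := F) (AdjoinRoot g.1)) ?_ hxr⟩
  apply Prod.ext
  · exact mul_inv_cancel₀ (root_ne_zero_of g.1 h5)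
  · exact inv_mul_cancel₀ (root_ne_zero_of g.1 h5)

/-- The data of a field block, `i = 2 e`. -/
theorem line_data (hF : Fintype.card F = q) (hr : r.Prime) (hrp : r ≠ p) {e : ℕ} (he : 0 < e)
    (hi : orderOf (q : ZMod r) = 2 * e) (g : SS F r) [Fact (Irreducible g.1)] [FiniteDimensional F (AdjoinRoot g.1)] :
    let K := AdjoinRoot g.1
    let ω : K := AdjoinRoot.root g.1
    let T : End F K := Algebra.lmul F K ω
    T ^ r = 1 ∧ finrank F K = 2 * e ∧ Dk T (X - 1 : F[X]) = 0 ∧
      (∀ h : SS F r, Dk T h.1 = 2 * e * (if g = h then 1 else 0)) ∧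
      ∃ σ : K ≃ₐ[F] K, (∀ x, σ (σ x) = x) ∧ (∃ β, σ β ≠ β) ∧ ω * σ ω = 1 := by
  classical
  intro K ω T
  obtain ⟨h1, h2, h3, h4, h5⟩ := SS_props hr g
  have hdeg := natDegree_SS hF hr hrp g
  rw [hi] at hdeg
  haveI : Finite K := Module.finite_of_finite F
  have hω0 : ω ≠ 0 := root_ne_zero_of g.1 h5
  have hω1 : ω ≠ 1 := root_ne_one_of g.1 h2 h4
  have hωr : ω ^ r = 1 := root_pow_of_dvd g.1 h3
  have hfin : finrank F K = 2 * e := by rw [finrank_adjoinRoot g.1 h2, hdeg]
  refine ⟨?_, hfin, Dk_lmul_x1 hr g hω1, ?_, ?_⟩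
  · show (Algebra.lmul F K ω) ^ r = 1
    rw [← map_pow, hωr, map_one]
  · intro h
    rw [Dk_lmul_root hr g h, hdeg]
  · have hq2 : 2 ≤ q := hF ▸ Fintype.one_lt_card
    letI : Fintype K := Fintype.ofFinite K
    have hcardK' : Fintype.card K = q ^ (2 * e) := by
      rw [← Nat.card_eq_fintype_card, Module.natCard_eq_pow_finrank (K := F), hfin, Nat.card_eq_fintype_card, hF]
    let σ₀ : K ≃ₐ[F] K := FiniteField.frobeniusAlgEquivOfAlgebraic F K
    let σ : K ≃ₐ[F] K := σ₀ ^ e
    have hσ_apply : ∀ x, σ x = x ^ (q ^ e) := by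
      intro x
      have h1 : (⇑σ) = (⇑σ₀)^[e] := AlgEquiv.coe_pow σ₀ e
      rw [h1, FiniteField.coe_frobeniusAlgEquivOfAlgebraic_iterate, hF]
    have hσσ : ∀ x, σ (σ x) = x := by
      intro x
      rw [hσ_apply, hσ_apply, ← pow_mul, ← pow_add, ← two_mul, ← hcardK']
      exact FiniteField.pow_card x
    have hdvd := dvd_pow_add_one hr hi he
    refine ⟨σ, hσσ, ?_, ?_⟩
    · have hQ1 : 1 < q ^ e := Nat.one_lt_pow (by omega) (by omega)
      by_contra hc
      push Not at hc
      obtain ⟨ζ, hζ⟩ := IsCyclic.exists_ofOrder_eq_natCard (α := Kˣ)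
      have h1 : (ζ : K) ^ (q ^ e) = ζ := by
        rw [← hσ_apply, hc]
      have h2' : ζ ^ (q ^ e - 1) = 1 := by
        apply Units.ext
        have h3' : (ζ : K) ^ (q ^ e - 1) * ζ = 1 * ζ := by
          rw [← pow_succ, Nat.sub_add_cancel hQ1.le, h1, one_mul]
        have h4' := mul_right_cancel₀ ζ.ne_zero h3'
        simpa using h4'
      have h3' := orderOf_dvd_of_pow_eq_one h2'
      rw [hζ, Nat.card_units, Nat.card_eq_fintype_card, hcardK'] at h3'
      have h4' := Nat.le_of_dvd (by omega) h3'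
      have h5' : q ^ (2 * e) = q ^ e * q ^ e := by rw [two_mul, pow_add]
      have h6' : 2 * q ^ e ≤ q ^ e * q ^ e := Nat.mul_le_mul_right _ (by omega)
      omega
    · rw [hσ_apply, ← pow_succ']
      obtain ⟨c, hc⟩ := hdvd
      rw [hc, pow_mul, hωr, one_pow]

theorem blkQ_line (hF : Fintype.card F = q) (hr : r.Prime) (hrp : r ≠ p) {e : ℕ} (he : 0 < e)
    (hi : orderOf (q : ZMod r) = 2 * e) (g : SS F r) :
    Blk GoodQ r (2 * e) (2 * e) (fun h => if g = h then 1 else 0) := by
  classical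
  obtain ⟨h1, h2, h3, h4, h5⟩ := SS_props hr g
  haveI : Fact (Irreducible g.1) := ⟨h1⟩
  haveI : FiniteDimensional F (AdjoinRoot g.1) := (AdjoinRoot.powerBasis' h2).finite
  haveI : Finite (AdjoinRoot g.1) := Module.finite_of_finite F
  obtain ⟨hTr, hfin, hx1, hDk, σ, hσ, hne, hω⟩ := line_data hF hr hrp he hi g
  refine ⟨AdjoinRoot g.1, inferInstance, inferInstance, inferInstance, _, ?_, hTr, hfin, hx1, hDk⟩
  obtain ⟨μ, hq⟩ := isQAlg_field (F := F) (AdjoinRoot g.1) σ hσ hne
  exact ⟨_, qform_nondeg hq, fun v => qform_lmul hω v⟩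

theorem blkS_line (hF : Fintype.card F = q) (hr : r.Prime) (hrp : r ≠ p) {e : ℕ} (he : 0 < e)
    (hi : orderOf (q : ZMod r) = 2 * e) (g : SS F r) :
    Blk (GoodS r) r (2 * e) (2 * e) (fun h => if g = h then 1 else 0) := by
  classical
  obtain ⟨h1, h2, h3, h4, h5⟩ := SS_props hr g
  have hdeg := natDegree_SS hF hr hrp g
  rw [hi] at hdeg
  obtain ⟨V, _, _, _, B, T, hB, hf, hD, -⟩ := exists_line hF h1 (show g.1 ∣ X ^ r - 1 from by simpa [f0] using h3) he.ne' hdeg
    (dvd_pow_add_one hr hi he)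
  refine ⟨V, inferInstance, inferInstance, inferInstance, T, ⟨B, hB⟩, hB.pow, hf, ?_, ?_⟩
  · rw [hD, if_neg]
    intro hdvd
    exact h4 (eq_of_monic_of_associated h2 x1_monic (h1.associated_of_dvd x1_irr hdvd))
  · intro h
    obtain ⟨k1, k2, k3, k4, k5⟩ := SS_props hr h
    rw [hD]
    show (if g.1 ∣ h.1 then 2 * e else 0) = 2 * e * (if g = h then 1 else 0)
    by_cases hgh : g = h
    · rw [if_pos hgh, if_pos (by rw [hgh]), mul_one]
    · rw [if_neg hgh, if_neg, mul_zero]
      intro hdvd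
      exact hgh (Subtype.ext (eq_of_monic_of_associated h2 k2 (h1.associated_of_dvd k1 hdvd)))

end Blk

end Cfsg.Agent.Lib.SSClass
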